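import Cfsg.Agent.Lib.TPS.Defs
import Cfsg.Agent.Lib.Perm.Sharp2
import Cfsg.Agent.Lib.Tech.SylowIn

/-! Package BAS: Witt, sharp actions, the groups `Sab`.  See `plans/TPS.md`. -/

set_option autoImplicit false
set_option linter.unusedSectionVars false

namespace CfsgLib.TPS

open Subgroup MulAction CfsgLib.Perm CfsgLib.Kim CfsgLib.DihSyl

variable {G : Type*} [Group G] [Finite G] {Ω : Type*} [Finite Ω] [MulAction G Ω]

/-- the points fixed by `S` -/
def Fx (Ω : Type*) [MulAction G Ω] (S : Subgroup G) : Set Ω := {x | ∀ s ∈ S, s • x = x}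

theorem bas_sq {x : G} (h : orderOf x = 2) : x * x = 1 := by
  simpa [pow_two, h] using pow_orderOf_eq_one x

theorem bas_ne {x : G} (h : orderOf x = 2) : x ≠ 1 := fun e => by simp [e] at h

theorem bas_ord {x : G} (h : x * x = 1) (h1 : x ≠ 1) : orderOf x = 2 :=
  orderOf_eq_prime (by rw [pow_two, h]) h1

theorem bas_ord_conj (g x : G) : orderOf (g * x * g⁻¹) = orderOf x :=
  (MulAut.conj g).orderOf_eq x

theorem bas_sylow {P K : Subgroup G} (hP : P ≤ K) (two : IsPGroup 2 P) (odd : Odd (P.relIndex K)) :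
    Tech.IsSylowIn 2 P K :=
  ⟨hP, two, fun h => Nat.not_even_iff_odd.2 odd (even_iff_two_dvd.2 h)⟩

/-- the size of an orbit under conjugation -/
theorem bas_orb (K : Subgroup G) (t : G) :
    {s | ∃ k ∈ K, k * t * k⁻¹ = s}.ncard * Nat.card ↥(K ⊓ centralizer ({t} : Set G)) =
      Nat.card K := by
  have := dc (Set.toFinite (K : Set G)) (Set.toFinite {s | ∃ k ∈ K, k * t * k⁻¹ = s})
    (fun g s => g * t * g⁻¹ = s) (m := 1) (n := Nat.card ↥(K ⊓ centralizer ({t} : Set G)))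
    (fun g hg => ?_) (fun s hs => ?_)
  · rw [← this, mul_one, ncard_coe]
  · rw [Set.ncard_eq_one]
    exact ⟨_, Set.eq_singleton_iff_unique_mem.2 ⟨⟨⟨g, hg, rfl⟩, rfl⟩, fun x hx => hx.2.symm⟩⟩
  · obtain ⟨g, hg, rfl⟩ := hs
    rw [← ncard_coe]
    symm
    refine Set.ncard_congr (fun x _ => g * x) (fun x hx => ⟨K.mul_mem hg hx.1, ?_⟩)
      (fun _ _ _ _ e => mul_left_cancel e) (fun x hx => ⟨g⁻¹ * x, ⟨K.mul_mem (K.inv_mem hg) hx.1, ?_⟩,
        by group⟩)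
    · have : x * t = t * x := mem_centralizer_singleton_iff.1 hx.2
      calc g * x * t * (g * x)⁻¹ = g * (x * t) * x⁻¹ * g⁻¹ := by group
        _ = _ := by rw [this]; group
    · refine mem_centralizer_singleton_iff.2 ?_
      calc g⁻¹ * x * t = g⁻¹ * (x * t * x⁻¹) * x := by group
        _ = _ := by rw [hx.2]; group

/-- a subgroup of a simple group normalised by it -/
theorem bas_normal {D N : Subgroup G} (hs : IsSimpleGroup D) (hn : ∀ d ∈ D, ∀ x ∈ N, d * x * d⁻¹ ∈ N)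
    {x : G} (hx : x ∈ N) (hD : x ∈ D) (h1 : x ≠ 1) : D ≤ N := by
  have : (N.subgroupOf D).Normal := ⟨fun n hn' g => hn g g.2 n hn'⟩
  rcases this.eq_bot_or_eq_top with e | e
  · have : (⟨x, hD⟩ : D) ∈ N.subgroupOf D := hx
    rw [e, mem_bot] at this
    exact absurd (congrArg Subtype.val this) h1
  · exact subgroupOf_eq_top.1 e

/-- a simple group of even order is generated by its involutions -/
theorem bas_gen {D W : Subgroup G} (hs : IsSimpleGroup D) {x : G} (hD : x ∈ D) (h2 : orderOf x = 2)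
    (hW : ∀ v ∈ D, orderOf v = 2 → v ∈ W) : D ≤ W := by
  refine (bas_normal (N := closure {v | v ∈ D ∧ orderOf v = 2}) hs (fun d hd y hy => ?_)
    (subset_closure ⟨hD, h2⟩) hD (bas_ne h2)).trans ((closure_le _).2 fun v hv => hW v hv.1 hv.2)
  induction hy using closure_induction with
  | mem y hy => exact subset_closure ⟨mul_mem (mul_mem hd hy.1) (inv_mem hd), (bas_ord_conj d y).trans hy.2⟩
  | one => simp
  | mul y z _ _ hy hz => simpa [mul_assoc] using mul_mem hy hz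
  | inv y _ hy => simpa [mul_assoc] using inv_mem hy

section tt

variable {C : Subgroup G} {F : Set Ω} {a b : Ω}

/-- Witt's lemma -/
theorem witt (h : TT C F) (ha : a ∈ F) (hb : b ∈ F) (hab : a ≠ b) {P : Subgroup G}
    (hP : P ≤ C ⊓ stab2 G a b) (two : IsPGroup 2 P) (odd : Odd (P.relIndex (C ⊓ stab2 G a b))) :
    TT (C ⊓ normalizer (P : Set G)) (F ∩ Fx Ω P) := by
  have key : ∀ c d : Ω, c ∈ F ∩ Fx Ω P → d ∈ F ∩ Fx Ω P → c ≠ d →
      ∃ g ∈ C ⊓ normalizer (P : Set G), g • a = c ∧ g • b = d := by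
    intro c d hc hd hcd
    obtain ⟨g, hg, rfl, rfl⟩ := h.two ha hb hc.1 hd.1 hab hcd
    obtain ⟨k, hk, e⟩ := (bas_sylow hP two odd).exists_cj_le (Tech.isPGroup_cj g⁻¹ two)
      (Tech.cj_le_iff.2 fun x hx => ⟨C.mul_mem (C.mul_mem (C.inv_mem hg) (hP hx).1) (C.inv_mem (C.inv_mem hg)),
        show _ • a = a by rw [inv_inv, mul_smul, mul_smul, hc.2 x hx, inv_smul_smul],
        show _ • b = b by rw [inv_inv, mul_smul, mul_smul, hd.2 x hx, inv_smul_smul]⟩)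
    rw [← Tech.cj_mul] at e
    have h1 := inv_mem (Tech.mem_normalizer_of_cj_le e)
    have hk' := inv_mem hk
    rw [mul_inv_rev, inv_inv] at h1
    exact ⟨g * k⁻¹, ⟨mul_mem hg hk'.1, h1⟩, by rw [mul_smul, hk'.2.1], by rw [mul_smul, hk'.2.2]⟩
  refine ⟨fun g hg x hx => ⟨h.inv g hg.1 x hx.1, fun s hs => ?_⟩, fun hc hd hc' hd' h1 h2 => ?_⟩
  · have := hx.2 _ (Tech.conj_mem_of_mem_normalizer' hg.2 hs)
    rwa [mul_smul, mul_smul, inv_smul_eq_iff] at this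
  · obtain ⟨g, hg, rfl, rfl⟩ := key _ _ hc hd h1
    obtain ⟨k, hk, rfl, rfl⟩ := key _ _ hc' hd' h2
    exact ⟨k * g⁻¹, mul_mem hk (inv_mem hg), by rw [mul_smul, inv_smul_smul],
      by rw [mul_smul, inv_smul_smul]⟩

/-- sharply doubly transitive: prime power degree, fixed-point-free elements commute -/
theorem sharp (h : TT C F) (ha : a ∈ F) (hb : b ∈ F) (hab : a ≠ b)
    (hs : ∀ g ∈ C, g • a = a → g • b = b → ∀ x ∈ F, g • x = x) :
    (∃ p j : ℕ, p.Prime ∧ F.ncard = p ^ j) ∧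
    (∀ g ∈ C, ∀ x ∈ F, ∀ y ∈ F, x ≠ y → g • x = x → g • y = y → ∀ z ∈ F, g • z = z) ∧
    ∀ g ∈ C, ∀ k ∈ C, (∀ x ∈ F, g • x ≠ x) → (∀ x ∈ F, k • x ≠ x) → ∀ x ∈ F, g • k • x = k • g • x := by
  have h1 : ∀ g ∈ C, ∀ x ∈ F, ∀ y ∈ F, x ≠ y → g • x = x → g • y = y → ∀ z ∈ F, g • z = z := by
    intro g hg x hx y hy hxy e1 e2 z hz
    obtain ⟨k, hk, rfl, rfl⟩ := h.two ha hb hx hy hab hxy
    have := hs (k⁻¹ * g * k) (mul_mem (mul_mem (inv_mem hk) hg) hk)
      (by rw [mul_smul, mul_smul, e1, inv_smul_smul]) (by rw [mul_smul, mul_smul, e2, inv_smul_smul])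
      (k⁻¹ • z) (h.inv _ (inv_mem hk) z hz)
    simpa [mul_smul] using this
  obtain ⟨X, π, hπ, hx, h2⟩ := h.exists_image
  have hS : IsSharp2 X F := ⟨fun h3 h4 => exists_smul_pair h2 h3 h4, fun {g x y} hxy e1 e2 => by
    obtain ⟨g, rfl⟩ := hπ g
    refine Subtype.ext (Equiv.ext fun z => Subtype.ext ((hx g z).trans ?_))
    exact h1 g g.2 x x.2 y y.2 (fun e => hxy (Subtype.ext e)) ((hx g x).symm.trans (congrArg _ e1))
      ((hx g y).symm.trans (congrArg _ e2)) z z.2⟩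
  have : Nontrivial F := ⟨⟨a, ha⟩, ⟨b, hb⟩, fun e => hab (congrArg Subtype.val e)⟩
  refine ⟨?_, h1, fun g hg k hk e1 e2 x hx' => ?_⟩
  · obtain ⟨p, j, hp, -, e, -⟩ := hS.exists_prime_pow
    exact ⟨p, j, hp, e⟩
  · have := hS.kernel_comm (y := π ⟨g, hg⟩) (z := π ⟨k, hk⟩)
      (hS.mem_kernel.2 (.inr fun c e => e1 c c.2 ((hx _ c).symm.trans (congrArg _ e))))
      (hS.mem_kernel.2 (.inr fun c e => e2 c c.2 ((hx _ c).symm.trans (congrArg _ e))))
    rw [← map_mul, ← map_mul] at this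
    have e := hx (⟨k, hk⟩ * ⟨g, hg⟩) ⟨x, hx'⟩
    rw [← this, hx] at e
    simpa [mul_smul] using e

/-- a faithful abelian normal subgroup is regular -/
theorem card_of_abelian (h : TT C F) (ha : a ∈ F) {R : Subgroup G} (hR : R ≤ C)
    (hn : ∀ g ∈ C, ∀ x ∈ R, g * x * g⁻¹ ∈ R) (hc : ∀ x ∈ R, ∀ y ∈ R, x * y = y * x) (h1 : R ≠ ⊥)
    (hf : ∀ x ∈ R, (∀ c ∈ F, x • c = c) → x = 1) : F.ncard = Nat.card R := by
  obtain ⟨⟨x, hx⟩, hx1⟩ := ne_bot_iff_exists_ne_one.1 h1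
  obtain ⟨c, hc', e⟩ : ∃ c ∈ F, x • c ≠ c := by
    by_contra k
    push Not at k
    exact hx1 (Subtype.ext (hf x hx k))
  have tr : ∀ d ∈ F, ∃ y ∈ R, y • a = d := fun d hd => by
    by_cases k : d = a
    · exact ⟨1, one_mem _, by rw [one_smul, k]⟩
    obtain ⟨g, hg, e1, e2⟩ := h.two hc' (h.inv x (hR hx) c hc') ha hd e.symm (Ne.symm k)
    exact ⟨_, hn g hg x hx, by rw [← e1, conj_smul, e2]⟩
  rw [← ncard_coe]
  symm
  refine Set.ncard_congr (fun y _ => y • a) (fun y hy => h.inv y (hR hy) a ha) (fun y z hy hz e => ?_)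
    fun d hd => let ⟨y, h3, h4⟩ := tr d hd; ⟨y, h3, h4⟩
  have h3 : z⁻¹ * y ∈ R := mul_mem (inv_mem hz) hy
  refine (inv_mul_eq_one.1 (hf _ h3 fun d hd => ?_)).symm
  obtain ⟨w, hw, rfl⟩ := tr d hd
  rw [← mul_smul, hc _ h3 w hw, mul_smul, mul_smul, e, inv_smul_smul]

end tt

theorem TyO.card_cent {D : Subgroup G} {r q : ℕ} (h : TyO D r q) {s : G} (hs : s ∈ D) (h2 : orderOf s = 2) :
    Nat.card ↥(D ⊓ centralizer ({s} : Set G)) = 4 * r ∧
      {x | x ∈ D ⊓ centralizer ({s} : Set G) ∧ x * x = 1}.ncard = 2 * r + 2 := by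
  obtain ⟨y, w, hD, hy, -⟩ := h.tor s hs h2
  refine ⟨by rw [hD.card]; ring, ?_⟩
  have e : {x | x ∈ D ⊓ centralizer ({s} : Set G) ∧ x * x = 1} =
      {1, s} ∪ (· * w) '' (zpowers y : Set G) := by
    ext x
    constructor
    · rintro ⟨h3, h4⟩
      obtain ⟨i, rfl | rfl⟩ := (hD.mem x).1 h3
      · by_cases k : y ^ i = 1
        · exact .inl (.inl k)
        · exact .inl (.inr (hD.eq_of_sq (zpow_mem (mem_zpowers y) i) hy h4 (bas_sq h2) k (bas_ne h2)))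
      · exact .inr ⟨_, zpow_mem (mem_zpowers y) i, rfl⟩
    · rintro ((rfl | rfl) | ⟨_, ⟨i, rfl⟩, rfl⟩)
      exacts [⟨one_mem _, mul_one _⟩, ⟨hD.zpowers_le hy, bas_sq h2⟩, ⟨hD.rpows_mem i, hD.rpows_sq i⟩]
  rw [e, Set.ncard_union_eq, Set.ncard_pair (bas_ne h2).symm,
    Set.ncard_image_of_injective _ (mul_left_injective w), ncard_coe, Nat.card_zpowers, hD.ord, add_comm]
  rw [Set.disjoint_left]
  rintro x hx ⟨_, ⟨i, rfl⟩, rfl⟩
  refine hD.rpows_notMem i ?_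
  rcases hx with e | e
  · exact (show y ^ i * w = 1 from e) ▸ one_mem _
  · exact (show y ^ i * w = s from e) ▸ hy

theorem TyO.exists_inv {D : Subgroup G} {r q : ℕ} (h : TyO D r q) : ∃ s ∈ D, orderOf s = 2 := by
  have h2 : 2 ∣ Nat.card D := by
    have h1 := h.card
    have h5 := h.five_le
    rcases h.num with e | e
    · rw [← e] at h1
      exact ⟨r * q * (q - 1), by linarith⟩
    · rw [show q - 1 = 4 * r by omega] at h1
      exact ⟨(q + 1) * q * r, by linarith⟩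
  obtain ⟨x, hx⟩ := exists_prime_orderOf_dvd_card' (G := D) 2 h2
  exact ⟨x, x.2, (orderOf_coe x).trans hx⟩

theorem TyO.card_inv {D : Subgroup G} {r q : ℕ} (h : TyO D r q) :
    {x | x ∈ D ∧ orderOf x = 2}.ncard * (4 * r) = Nat.card D := by
  obtain ⟨s, hs, h2⟩ := h.exists_inv
  rw [← (h.card_cent hs h2).1, ← bas_orb D s]
  congr 2
  ext x
  refine ⟨fun hx => h.one s hs x hx.1 h2 hx.2, ?_⟩
  rintro ⟨k, hk, rfl⟩
  exact ⟨mul_mem (mul_mem hk hs) (inv_mem hk), (bas_ord_conj k s).trans h2⟩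

theorem TyJ.card_cent {D S : Subgroup G} {r q : ℕ} (h : TyJ D S r q) {s : G} (hs : s ∈ D)
    (h2 : orderOf s = 2) : Nat.card ↥(D ⊓ centralizer ({s} : Set G)) = (q + 1) * q * (q - 1) := by
  obtain ⟨L, hL, h3, h4, h5⟩ := h.loc s hs h2
  have hC : s ∈ D ⊓ centralizer ({s} : Set G) := ⟨hs, mem_centralizer_singleton_iff.2 rfl⟩
  have e : ((D ⊓ centralizer ({s} : Set G) : Subgroup G) : Set G) = (L : Set G) ∪ (s * ·) '' (L : Set G) := by
    ext x
    constructor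
    · intro hx
      exact (h5 x hx).imp_right fun k => ⟨_, k, show s * (s * x) = x by rw [← mul_assoc, bas_sq h2, one_mul]⟩
    · rintro (hx | ⟨x, hx, rfl⟩)
      exacts [h3 hx, mul_mem hC (h3 hx)]
  rw [← hL.card, ← ncard_coe, e, Set.ncard_union_eq,
    Set.ncard_image_of_injective _ (mul_right_injective s), ncard_coe, mul_two]
  rw [Set.disjoint_left]
  rintro _ hx ⟨x, hx', rfl⟩
  exact h4 ((L.mul_mem_cancel_right hx').1 hx)

namespace Sab

variable {D S : Subgroup G} (h : Sab D S)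
include h

theorem syl : Tech.IsSylowIn 2 S D := bas_sylow h.le h.two h.odd

theorem comm {x y : G} (hx : x ∈ S) (hy : y ∈ S) : x * y = y * x := by
  rw [← inv_eq_of_mul_eq_one_right (h.elem _ (mul_mem hx hy)), mul_inv_rev,
    inv_eq_of_mul_eq_one_right (h.elem x hx), inv_eq_of_mul_eq_one_right (h.elem y hy)]

theorem ord {x : G} (hx : x ∈ S) (h1 : x ≠ 1) : orderOf x = 2 := bas_ord (h.elem x hx) h1

theorem exists_ne (s : G) : ∃ v ∈ S, v ≠ 1 ∧ v ≠ s := by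
  by_contra k
  push Not at k
  have h1 : (S : Set G) ⊆ {1, s} := fun v hv => by
    by_cases e : v = 1
    exacts [.inl e, .inr (k v hv e)]
  have h2 := Set.ncard_le_ncard h1
  have h3 := Set.ncard_insert_le (1 : G) {s}
  have h4 := h.four_le
  rw [ncard_coe] at h2
  rw [Set.ncard_singleton] at h3
  omega

theorem conj_le {P : Subgroup G} (hP : P ≤ D) (h2 : IsPGroup 2 P) :
    ∃ g ∈ D, ∀ x ∈ P, g * x * g⁻¹ ∈ S :=
  let ⟨g, hg, e⟩ := h.syl.exists_cj_le h2 hP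
  ⟨g, hg, Tech.cj_le_iff.1 e⟩

theorem eq_of_le {P : Subgroup G} (hP : P ≤ D) (h2 : IsPGroup 2 P) (hS : S ≤ P) : P = S :=
  h.syl.eq_of_le h2 hS hP

theorem sq {g : G} (hg : g ∈ D) (h4 : g * g * (g * g) = 1) : g * g = 1 := by
  obtain ⟨k, -, e⟩ := h.syl.exists_conj_mem hg (Tech.isPGroup_zpowers_of_pow (k := 2)
    (by rw [← h4]; simp [pow_succ, mul_assoc]))
  have := h.elem _ e
  calc g * g = k⁻¹ * (k * g * k⁻¹ * (k * g * k⁻¹)) * k := by group
    _ = 1 := by rw [this]; group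

theorem mem_of_sq {g : G} (hg : g ∈ D) (hn : g ∈ normalizer (S : Set G)) (h2 : g * g ∈ S) : g ∈ S :=
  h.syl.le_of_normalizes (Tech.isPGroup_zpowers_of_pow (k := 2) (by rw [← h.elem _ h2]; simp [pow_succ, mul_assoc]))
    (zpowers_le.2 hg) (zpowers_le.2 hn) (mem_zpowers g)

theorem le_of_normal {N : Subgroup G} (hn : ∀ d ∈ D, ∀ x ∈ N, d * x * d⁻¹ ∈ N) {x : G} (hx : x ∈ N)
    (hD : x ∈ D) (h1 : x ≠ 1) : D ≤ N := bas_normal h.simple hn hx hD h1

theorem eq_one_of_comm {g : G} (hg : g ∈ D) (hc : ∀ d ∈ D, g * d = d * g) : g = 1 := by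
  by_contra h1
  have := h.le_of_normal (N := centralizer (D : Set G)) (fun d hd x hx => by
    rw [hx d hd, mul_inv_cancel_right]; exact hx) (fun d hd => (hc d hd).symm) hg h1
  exact h.ncomm ⟨⟨fun x y => Subtype.ext (this y.2 x x.2)⟩⟩

theorem card_inv {s : G} (hs : s ∈ D) (h2 : orderOf s = 2) :
    {x | x ∈ D ∧ orderOf x = 2}.ncard * Nat.card ↥(D ⊓ centralizer ({s} : Set G)) = Nat.card D := by
  rw [← bas_orb D s]
  congr 2
  ext x
  refine ⟨fun hx => h.one s hs x hx.1 h2 hx.2, ?_⟩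
  rintro ⟨k, hk, rfl⟩
  exact ⟨mul_mem (mul_mem hk hs) (inv_mem hk), (bas_ord_conj k s).trans h2⟩

theorem exists_ncomm : ∃ x ∈ D, ∃ y ∈ D, orderOf x = 2 ∧ orderOf y = 2 ∧ x * y ≠ y * x := by
  by_contra k
  push Not at k
  obtain ⟨s, hs, h1, -⟩ := h.exists_ne 1
  have := bas_gen (W := centralizer ({s} : Set G)) h.simple (h.le hs) (h.ord hs h1) fun v hv h2 =>
    mem_centralizer_singleton_iff.2 (k v hv s (h.le hs) h2 (h.ord hs h1))
  exact h1 (h.eq_one_of_comm (h.le hs) fun d hd => (mem_centralizer_singleton_iff.1 (this hd)).symm)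

theorem four (h4 : Nat.card S = 4) {s v x : G} (hs : s ∈ S) (hv : v ∈ S) (s1 : s ≠ 1) (v1 : v ≠ 1)
    (vs : v ≠ s) : x ∈ S ↔ x = 1 ∨ x = s ∨ x = v ∨ x = s * v := by
  have h1 : ({1, s, v, s * v} : Set G) ⊆ S := by
    rintro x (rfl | rfl | rfl | rfl)
    exacts [one_mem _, hs, hv, mul_mem hs hv]
  have h2 : s * v ≠ 1 := fun e => vs (by
    rw [eq_inv_of_mul_eq_one_right e, inv_eq_of_mul_eq_one_right (h.elem s hs)])
  have h3 : ({1, s, v, s * v} : Set G).ncard = 4 := by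
    rw [Set.ncard_insert_of_notMem, Set.ncard_insert_of_notMem, Set.ncard_pair] <;>
      simp [s1, v1, vs.symm, s1.symm, v1.symm, h2.symm]
  have := Set.eq_of_subset_of_ncard_le h1 (by rw [ncard_coe, h3, h4])
  exact Set.ext_iff.1 this.symm x

/-- the centraliser of an involution is generated by involutions -/
theorem gen (ht : Ty0 D S) {s : G} (hs : s ∈ S) (h1 : s ≠ 1) {W : Subgroup G}
    (hW : ∀ v ∈ D ⊓ centralizer ({s} : Set G), orderOf v = 2 → v ∈ W) :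
    D ⊓ centralizer ({s} : Set G) ≤ W := by
  have h2 := h.ord hs h1
  rcases ht with ⟨k, ht⟩ | ⟨r, q, -, ht⟩ | ⟨r, q, ht⟩
  · rw [ht.cent s hs h1] at hW ⊢
    intro v hv
    by_cases e : v = 1
    exacts [e ▸ one_mem _, hW v hv (h.ord hv e)]
  · obtain ⟨y, w, hD, -, -⟩ := ht.tor s (h.le hs) h2
    have h3 : ∀ i : ℤ, y ^ i * w ∈ W := fun i => hW _ (hD.rpows_mem i) (hD.orderOf_rpows i)
    intro g hg
    obtain ⟨i, rfl | rfl⟩ := (hD.mem g).1 hg
    · simpa [mul_assoc, hD.ss] using mul_mem (h3 i) (h3 0)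
    · exact h3 i
  · obtain ⟨L, hL, h3, -, h5⟩ := ht.loc s (h.le hs) h2
    obtain ⟨x, hx, hx2⟩ := hL.exists_inv
    have h6 : L ≤ W := bas_gen hL.simple hx hx2 fun v hv => hW v (h3 hv)
    have h7 : s ∈ W := hW s ⟨h.le hs, mem_centralizer_singleton_iff.2 rfl⟩ h2
    intro g hg
    exact (h5 g hg).elim (fun k => h6 k) fun k => (W.mul_mem_cancel_left h7).1 (h6 k)

end Sab

theorem Ty.ty0 {D S : Subgroup G} (h : Ty D S) : Ty0 D S :=
  h.imp_right (Or.imp_left fun ⟨r, q, _, h1, h2⟩ => ⟨r, q, h1, h2⟩)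

end CfsgLib.TPS
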