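import Cfsg.Agent.Lib.Kim.Gen
import Cfsg.Agent.Lib.DihSyl.Basic

/-!
Vocabulary for doubly transitive groups whose two-point stabiliser is simple with abelian Sylow
2-subgroups (S3400).  See `plans/TPS.md`.
-/

set_option autoImplicit false

namespace CfsgLib.TPS

open Subgroup MulAction CfsgLib.Perm CfsgLib.Kim CfsgLib.DihSyl Matrix MatrixGroups

variable {G : Type*} [Group G]

/-- `D` is non-abelian simple with the elementary abelian Sylow 2-subgroup `S` -/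
structure Sab (D S : Subgroup G) : Prop where
  simple : IsSimpleGroup D
  ncomm : ¬ IsMulCommutative D
  le : S ≤ D
  two : IsPGroup 2 S
  odd : Odd (S.relIndex D)
  elem : ∀ s ∈ S, s * s = 1
  four_le : 4 ≤ Nat.card S
  cent : D ⊓ centralizer (S : Set G) = S
  one : ∀ s ∈ D, ∀ t ∈ D, orderOf s = 2 → orderOf t = 2 → ∃ g ∈ D, g * s * g⁻¹ = t
  sing : ∃ z ∈ D, z ∈ normalizer (S : Set G) ∧ orderOf z + 1 = Nat.card S ∧
    (∀ v ∈ S, v ≠ 1 → ∀ w ∈ S, w ≠ 1 → ∃ y ∈ zpowers z, y * v * y⁻¹ = w) ∧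
    ∀ y ∈ zpowers z, ∀ v ∈ S, v ≠ 1 → y * v = v * y → y = 1

/-- `D ≅ L₂(2 ^ k)`, `k ≥ 3` -/
structure TyE (D S : Subgroup G) (k : ℕ) : Prop where
  three_le : 3 ≤ k
  cardS : Nat.card S = 2 ^ k
  card : Nat.card D = (2 ^ k + 1) * 2 ^ k * (2 ^ k - 1)
  cent : ∀ s ∈ S, s ≠ 1 → D ⊓ centralizer ({s} : Set G) = S
  norm : Nat.card ↥(D ⊓ normalizer (S : Set G)) = 2 ^ k * (2 ^ k - 1)
  iso : ∃ (F : Type) (_ : Field F) (_ : Fintype F), Fintype.card F = 2 ^ k ∧ Nonempty (D ≃* PSL(2, F))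

/-- `D ≅ L₂(q)`, `q = 4 r ± 1 ≥ 5`, `r` odd (`r = 1` is `A₅`) -/
structure TyO (D : Subgroup G) (r q : ℕ) : Prop where
  simple : IsSimpleGroup D
  ncomm : ¬ IsMulCommutative D
  odd : Odd r
  five_le : 5 ≤ q
  num : 4 * r = q + 1 ∨ 4 * r + 1 = q
  card : Nat.card D * 2 = (q + 1) * q * (q - 1)
  one : ∀ s ∈ D, ∀ t ∈ D, orderOf s = 2 → orderOf t = 2 → ∃ g ∈ D, g * s * g⁻¹ = t
  tor : ∀ s ∈ D, orderOf s = 2 → ∃ y w : G, IsDih (D ⊓ centralizer ({s} : Set G)) (2 * r) y w ∧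
    s ∈ zpowers y ∧ ∀ a ∈ zpowers y, a * a ≠ 1 → D ⊓ centralizer ({a} : Set G) ≤ zpowers y
  iso : ∃ (F : Type) (_ : Field F) (_ : Fintype F), Fintype.card F = q ∧ Nonempty (D ≃* PSL(2, F))

/-- `D` is `J₁` or a Ree group: `C_D(s) = ⟨s⟩ × L₂(q)` -/
structure TyJ (D S : Subgroup G) (r q : ℕ) : Prop where
  cardS : Nat.card S = 8
  loc : ∀ s ∈ D, orderOf s = 2 → ∃ L : Subgroup G, TyO L r q ∧ L ≤ D ⊓ centralizer ({s} : Set G) ∧
    s ∉ L ∧ ∀ g ∈ D ⊓ centralizer ({s} : Set G), g ∈ L ∨ s * g ∈ L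
  card : (q = 5 ∧ Nat.card D = 175560) ∨
    ∃ m : ℕ, 1 ≤ m ∧ q = 3 ^ (2 * m + 1) ∧ Nat.card D = q ^ 3 * (q ^ 3 + 1) * (q - 1)

/-- the three types, `A₅` included -/
def Ty0 (D S : Subgroup G) : Prop :=
  (∃ k, TyE D S k) ∨ (∃ r q, Nat.card S = 4 ∧ TyO D r q) ∨ ∃ r q, TyJ D S r q

/-- the three types, `A₅` excluded -/
def Ty (D S : Subgroup G) : Prop :=
  (∃ k, TyE D S k) ∨ (∃ r q, 3 ≤ r ∧ Nat.card S = 4 ∧ TyO D r q) ∨ ∃ r q, TyJ D S r q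

/-- a counterexample -/
structure Cx {Ω : Type*} [MulAction G Ω] (a b : Ω) (S : Subgroup G) : Prop where
  h2 : IsMultiplyPretransitive G Ω 2
  hn : NoReg G Ω
  ne : a ≠ b
  sab : Sab (stab2 G a b) S
  ty : Ty (stab2 G a b) S

/-- type X: an element interchanging `a` and `b` centralises `S` -/
def TX {Ω : Type*} [MulAction G Ω] (a b : Ω) (S : Subgroup G) : Prop :=
  ∃ u : G, u • a = b ∧ u • b = a ∧ u ∈ centralizer (S : Set G)

/-- the conjugacy class of `s` -/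
def cls (s : G) : Set G := {x | IsConj s x}

end CfsgLib.TPS
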