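import Cfsg.Agent.Lib.TPS.Bas

/-! Package XC3, arithmetic part.  See `plans/TPS-X.md`. -/

set_option autoImplicit false
set_option linter.unusedSectionVars false

namespace CfsgLib.TPS

open Subgroup MulAction CfsgLib.Perm CfsgLib.Kim CfsgLib.DihSyl

variable {G : Type*} [Group G] [Finite G] {Ω : Type*} [Finite Ω] [MulAction G Ω]

/-- a group acting semiregularly on `Φ - a` -/
theorem xc3_semi {X : Subgroup G} {Φ : Set Ω} {a : Ω} (ha : a ∈ Φ) (h1 : ∀ x ∈ X, ∀ c ∈ Φ, x • c ∈ Φ)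
    (h2 : ∀ x ∈ X, x • a = a) (h3 : ∀ x ∈ X, ∀ c ∈ Φ, c ≠ a → x • c = c → x = 1) :
    Nat.card X ∣ Φ.ncard - 1 := by
  let S : SubMulAction X Ω := ⟨Φ \ {a}, fun x c hc => ⟨h1 x x.2 c hc.1, fun e => hc.2 (by
    have := h2 _ (inv_mem x.2)
    rw [← (show (x : G) • c = a from e), inv_smul_smul] at this
    exact this.trans e)⟩⟩
  have := Nat.card_congr (MulAction.selfEquivOrbitsQuotientProd (G := X) (X := S) fun c => eq_bot_iff.2
    fun x hx => Subtype.ext (h3 x x.2 c c.2.1 c.2.2 (congrArg Subtype.val hx)))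
  rw [← Set.ncard_singleton a, ← Set.ncard_sdiff (Set.singleton_subset_iff.2 ha), ← Nat.card_coe_set_eq]
  exact ⟨_, (this.trans (Nat.card_prod _ _)).trans (mul_comm _ _)⟩

/-- the orders of `S`, `D`, `C_D(s)` in types `E` and `J` -/
def Dat (n N c : ℕ) : Prop :=
  (∃ k, 3 ≤ k ∧ n = 2 ^ k ∧ N = (2 ^ k + 1) * 2 ^ k * (2 ^ k - 1) ∧ c = 2 ^ k) ∨
    (n = 8 ∧ N = 175560 ∧ c = 120) ∨
    (n = 8 ∧ ∃ m q, 1 ≤ m ∧ q = 3 ^ (2 * m + 1) ∧ N = q ^ 3 * (q ^ 3 + 1) * (q - 1) ∧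
      c = (q + 1) * q * (q - 1))

theorem xc3_dat {D S : Subgroup G} (h : Sab D S) (ht : (∃ k, TyE D S k) ∨ ∃ r q, TyJ D S r q) {s : G}
    (hs : s ∈ S) (h2 : orderOf s = 2) :
    Dat (Nat.card S) (Nat.card D) (Nat.card ↥(D ⊓ centralizer ({s} : Set G))) := by
  rcases ht with ⟨k, ht⟩ | ⟨r, q, ht⟩
  · exact .inl ⟨k, ht.three_le, ht.cardS, ht.card, by rw [ht.cent s hs (bas_ne h2), ht.cardS]⟩
  · have h3 := ht.card_cent (h.le hs) h2
    rcases ht.card with ⟨rfl, e⟩ | ⟨m, h4, h5, e⟩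
    exacts [.inr (.inl ⟨ht.cardS, e, h3⟩), .inr (.inr ⟨ht.cardS, m, q, h4, h5, e, h3⟩)]

theorem xc3_ree {m q N c d : ℕ} (hq : q = 3 ^ (2 * m + 1)) (hN : N = q ^ 3 * (q ^ 3 + 1) * (q - 1))
    (hc : c = (q + 1) * q * (q - 1)) (hd : d * c = N) : ∃ u v w, d = 3 ^ (4 * m + 2) * u ∧
      c = 3 ^ (2 * m + 1) * v ∧ N = 3 ^ (6 * m + 3) * w ∧ ¬ 3 ∣ u ∧ ¬ 3 ∣ v ∧ ¬ 3 ∣ w := by
  have h3 : 3 ∣ q := hq ▸ dvd_pow_self 3 (by omega)
  have h0 : 0 < q := hq ▸ by positivity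
  have h33 : 3 ∣ q ^ 3 := dvd_pow h3 (by omega)
  have hv : ¬ 3 ∣ (q + 1) * (q - 1) := fun e =>
    (Nat.prime_three.dvd_mul.1 e).elim (by omega) (by omega)
  have hw : ¬ 3 ∣ (q ^ 3 + 1) * (q - 1) := fun e =>
    (Nat.prime_three.dvd_mul.1 e).elim (by omega) (by omega)
  have e1 : d * ((q + 1) * (q - 1)) = q ^ 2 * ((q ^ 3 + 1) * (q - 1)) :=
    Nat.eq_of_mul_eq_mul_left h0 (by rw [hc, hN] at hd; linear_combination hd)
  have e2 : q ^ 2 = 3 ^ (4 * m + 2) := by rw [hq]; ring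
  obtain ⟨u, hu⟩ : q ^ 2 ∣ d := Nat.Coprime.dvd_of_dvd_mul_right
    (e2 ▸ ((Nat.Prime.coprime_iff_not_dvd Nat.prime_three).2 hv).pow_left _) ⟨_, e1⟩
  refine ⟨u, _, _, e2 ▸ hu, by rw [hc, ← hq]; ring, by rw [hN, mul_assoc, hq]; congr 1; ring,
    fun e => hw ?_, hv, hw⟩
  rw [hu, mul_assoc] at e1
  exact Nat.eq_of_mul_eq_mul_left (pow_pos h0 2) e1 ▸ e.mul_right _

theorem xc3_three {x x' e e' u u' y : ℕ} (h1 : x = 3 ^ e * u) (h2 : x' = 3 ^ e' * u') (h3 : ¬ 3 ∣ u)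
    (h4 : e < e') (h5 : x' ∣ x * y) : 3 ∣ y := by
  have : 3 ^ e * 3 ∣ 3 ^ e * (u * y) := by
    rw [← mul_assoc, ← h1, ← pow_succ]
    exact ((pow_dvd_pow 3 h4).trans ⟨_, h2⟩).trans h5
  exact (Nat.prime_three.dvd_mul.1 (Nat.dvd_of_mul_dvd_mul_left (by positivity) this)).resolve_left h3

theorem xc3_arith {n N c d N' c' d' : ℕ} (h : Dat n N c) (h' : Dat n N' c') (hN : N ∣ N')
    (hd : d * c = N) (hd' : d' * c' = N') (h0 : 0 < c) :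
    d' = d ∨ ((∀ y, d' ∣ d * y → 3 ∣ y) ∧ ∀ y, c' ∣ c * y → 3 ∣ y) := by
  have same : N' = N → c' = c → d' = d := fun e1 e2 =>
    Nat.eq_of_mul_eq_mul_right h0 (by rw [hd, ← e1, ← hd', e2])
  have eight : ∀ k, 8 = 2 ^ k → k = 3 := fun k e =>
    (Nat.pow_right_injective le_rfl (show 2 ^ 3 = 2 ^ k from e)).symm
  have big : ∀ {m w : ℕ}, 1 ≤ m → N = 3 ^ (6 * m + 3) * w → 27 ∣ N' := fun hm e =>
    ((show 3 ^ 3 ∣ _ from pow_dvd_pow 3 (by omega)).trans ⟨_, e⟩).trans hN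
  rcases h' with ⟨k', -, e1, e2, e3⟩ | ⟨e1, e2, e3⟩ | ⟨e1, m', q', hm', hq', e2, e3⟩
  · rcases h with ⟨k, -, f1, f2, f3⟩ | ⟨f1, f2, f3⟩ | ⟨f1, m, q, hm, hq, f2, f3⟩
    · exact .inl (same (by rw [e2, f2, ← e1, ← f1]) (by rw [e3, f3, ← e1, ← f1]))
    · rw [← e1, f1] at e2
      rw [e2, f2] at hN
      omega
    · obtain ⟨u, v, w, -, -, g3, -⟩ := xc3_ree hq f2 f3 hd
      have := big hm g3
      rw [← e1, f1] at e2
      omega
  · rcases h with ⟨k, -, f1, f2, f3⟩ | ⟨f1, f2, f3⟩ | ⟨f1, m, q, hm, hq, f2, f3⟩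
    · rw [← f1, e1] at f2
      rw [e2, f2] at hN
      omega
    · exact .inl (same (e2.trans f2.symm) (e3.trans f3.symm))
    · obtain ⟨u, v, w, -, -, g3, -⟩ := xc3_ree hq f2 f3 hd
      have := big hm g3
      omega
  · obtain ⟨u', v', w', g1, g2, g3, -, -, g6⟩ := xc3_ree hq' e2 e3 hd'
    rcases h with ⟨k, -, f1, f2, f3⟩ | ⟨f1, f2, f3⟩ | ⟨f1, m, q, hm, hq, f2, f3⟩
    · rw [← f1, e1] at f2 f3
      exact .inr ⟨fun y => xc3_three (e := 2) (u := 7) (by rw [f2, f3] at hd; omega) g1 (by omega) (by omega),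
        fun y => xc3_three (e := 0) (u := 8) (by omega) g2 (by omega) (by omega)⟩
    · exact .inr ⟨fun y => xc3_three (e := 0) (u := 1463) (by rw [f2, f3] at hd; omega) g1 (by omega)
        (by omega), fun y => xc3_three (e := 1) (u := 40) (by omega) g2 (by omega) (by omega)⟩
    · obtain ⟨u, v, w, k1, k2, k3, k4, k5, -⟩ := xc3_ree hq f2 f3 hd
      rcases lt_trichotomy m m' with e | rfl | e
      · exact .inr ⟨fun y => xc3_three k1 g1 k4 (by omega), fun y => xc3_three k2 g2 k5 (by omega)⟩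
      · exact .inl (same (by rw [e2, f2, hq, hq']) (by rw [e3, f3, hq, hq']))
      · have := xc3_three (y := 1) g3 k3 g6 (by omega) (by rwa [mul_one])
        omega

end CfsgLib.TPS
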